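import Mathlib

/-!
# Systems of transvections (McLaughlin's theorem, combinatorial part).
`T v φ` says that the transvection with centre `v` and axis `φ` belongs to the group.
-/

set_option autoImplicit false

namespace Cfsg.Lib.TvS

open Relation

variable {F V W : Type*} [Field F] [AddCommGroup V] [Module F V] [AddCommGroup W] [Module F W]
  {β : W →ₗ[F] V →ₗ[F] F} {T S : V → W → Prop} {u v w x : V} {φ ψ ξ χ : W}

theorem ex_c (h2 : (2 : F) ≠ 0) {a : F} (ha : a ≠ 0) (b : F) : ∃ s : F, s ≠ 0 ∧ a + s * b ≠ 0 := by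
  by_cases h : a + 1 * b = 0
  · exact ⟨-1, by simp, fun e => mul_ne_zero h2 ha (by linear_combination h + e)⟩
  · exact ⟨1, one_ne_zero, h⟩

/-- Closure properties of the transvections of a group. -/
structure TS (β : W →ₗ[F] V →ₗ[F] F) (T : V → W → Prop) : Prop where
  two : (2 : F) ≠ 0
  dot : ∀ {v φ}, T v φ → β φ v = 0
  smul_l : ∀ {v φ} (c : F), T v φ → T (c • v) φ
  smul_r : ∀ {v φ} (c : F), T v φ → T v (c • φ)
  add_l : ∀ {v w φ}, T v φ → T w φ → T (v + w) φ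
  add_r : ∀ {v φ ψ}, T v φ → T v ψ → T v (φ + ψ)
  conj : ∀ {v φ w ψ}, T v φ → T w ψ → T (w + β φ w • v) (ψ - β ψ v • φ)

namespace TS

variable (h : TS β T)
include h

theorem flip : TS β.flip (fun φ v => T v φ) :=
  ⟨h.two, h.dot, h.smul_r, h.smul_l, h.add_r, h.add_l, fun {φ v ψ w} h1 h2 => by
    simpa [sub_eq_add_neg] using h.conj (h.smul_r (-1) h1) h2⟩

theorem conj' (h1 : T v φ) (h2 : T w ψ) (c : F) : T (w + (c * β φ w) • v) (ψ - (c * β ψ v) • φ) := by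
  simpa [smul_smul, mul_comm] using h.conj (h.smul_r c h1) h2

theorem comm (h1 : T v φ) (h2 : T w ψ) (a : β φ w ≠ 0) (b : β ψ v = 0) : T v ψ := by
  have := h.smul_l (β φ w)⁻¹ (h.add_l (h.conj h1 h2) (by simpa [b] using h.smul_l (-1) h2 : T (-w) _))
  simpa [b, smul_smul, a] using this

/-- Paths of length three can be shortened. -/
theorem short (h1 : T x ξ) (h2 : T w ψ) (a : β ξ v ≠ 0) (b : β ψ x ≠ 0) (c : β χ w ≠ 0) :
    ∃ y η, T y η ∧ β η v ≠ 0 ∧ β χ y ≠ 0 := by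
  by_cases d : β χ x = 0
  · obtain ⟨s, hs, e⟩ := ex_c h.two a (-(β ξ w * β ψ v))
    exact ⟨_, _, h.conj' h2 h1 s, by simpa [mul_assoc, sub_eq_add_neg] using e, by simp [d, hs, b, c]⟩
  · exact ⟨x, ξ, h1, a, d⟩

end TS

/-- Arrows between transvections. -/
def Ar (β : W →ₗ[F] V →ₗ[F] F) (T : V → W → Prop) (a b : V × W) : Prop := T b.1 b.2 ∧ b.1 ≠ 0 ∧ β b.2 a.1 ≠ 0

theorem TS.short' (h : TS β T) {a b : V × W} (r : TransGen (Ar β T) a b) (c : β χ b.1 ≠ 0) :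
    ∃ y η, T y η ∧ β η a.1 ≠ 0 ∧ β χ y ≠ 0 := by
  induction r generalizing χ with
  | single r => exact ⟨_, _, r.1, r.2.2, c⟩
  | tail _ r ih => exact let ⟨_, _, h1, h2, h3⟩ := ih r.2.2; h.short h1 r.1 h2 h3 c

/-- A connected component of a system in which every transvection has an opposite. -/
structure Cmp (β : W →ₗ[F] V →ₗ[F] F) (T S : V → W → Prop) : Prop extends TS β T where
  opp : ∀ {v φ}, T v φ → v ≠ 0 → φ ≠ 0 → ∃ x ξ, T x ξ ∧ β ξ v ≠ 0 ∧ β φ x ≠ 0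
  sub : ∀ {v φ}, S v φ → T v φ ∧ v ≠ 0 ∧ φ ≠ 0
  cl1 : ∀ {v φ w ψ}, S v φ → T w ψ → w ≠ 0 → β ψ v ≠ 0 → S w ψ
  cl2 : ∀ {v φ w ψ}, S v φ → T w ψ → ψ ≠ 0 → β φ w ≠ 0 → S w ψ
  mid : ∀ {v φ w ψ}, S v φ → S w ψ → ∃ x ξ, T x ξ ∧ β ξ v ≠ 0 ∧ β ψ x ≠ 0

theorem ne_l (h : β φ v ≠ 0) : φ ≠ 0 := fun e => by simp [e] at h

theorem ne_r (h : β φ v ≠ 0) : v ≠ 0 := fun e => by simp [e] at h

/-- The component of `a`. -/
theorem TS.cmp (h : TS β T) (opp : ∀ {v φ}, T v φ → v ≠ 0 → φ ≠ 0 → ∃ x ξ, T x ξ ∧ β ξ v ≠ 0 ∧ β φ x ≠ 0)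
    (a : V × W) : Cmp β T fun v φ => TransGen (Ar β T) a (v, φ) ∧ TransGen (Ar β T) (v, φ) a := by
  have k : ∀ {a b : V × W}, T a.1 a.2 → a.1 ≠ 0 → a.2 ≠ 0 → Ar β T a b → TransGen (Ar β T) b a :=
    fun {a b} h1 h2 h3 r => by
      by_cases c : β a.2 b.1 = 0
      · obtain ⟨x, ξ, h4, h5, h6⟩ := opp (h.comm r.1 h1 r.2.2 c) r.2.1 h3
        exact .tail (b := (x, ξ)) (.single ⟨h4, ne_r h6, h5⟩) ⟨h1, h2, h6⟩
      · exact .single ⟨h1, h2, c⟩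
  have s : ∀ {a b : V × W}, TransGen (Ar β T) a b → T b.1 b.2 ∧ b.1 ≠ 0 ∧ b.2 ≠ 0 := fun r => by
    obtain ⟨_, -, r⟩ := TransGen.tail'_iff.1 r
    exact ⟨r.1, r.2.1, ne_l r.2.2⟩
  refine ⟨h, opp, fun r => s r.1, fun {v φ w ψ} r h1 h2 h3 => ?_, fun {v φ w ψ} r h1 h2 h3 => ?_,
    fun {v φ w ψ} r r' => ?_⟩
  · obtain ⟨h4, h5, h6⟩ := s r.1
    exact ⟨r.1.tail ⟨h1, h2, h3⟩, (k h4 h5 h6 ⟨h1, h2, h3⟩).trans r.2⟩
  · obtain ⟨h4, h5, -⟩ := s r.1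
    exact ⟨r.1.trans (k (a := (w, ψ)) h1 (ne_r h3) h2 ⟨h4, h5, h3⟩), .head ⟨h4, h5, h3⟩ r.2⟩
  · obtain ⟨b, r1, r2⟩ := TransGen.tail'_iff.1 r'.1
    exact h.short' (r.2.trans_left r1) r2.2.2

namespace Cmp

variable (h : Cmp β T S)
include h

theorem flip' : Cmp β.flip (fun φ v => T v φ) (fun φ v => S v φ) :=
  ⟨h.toTS.flip, fun a b c => let ⟨x, ξ, h1, h2, h3⟩ := h.opp a c b; ⟨ξ, x, h1, h3, h2⟩,
    fun a => ⟨(h.sub a).1, (h.sub a).2.symm⟩, h.cl2, h.cl1,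
    fun a b => let ⟨x, ξ, h1, h2, h3⟩ := h.mid b a; ⟨ξ, x, h1, h3, h2⟩⟩

theorem t (a : S v φ) : T v φ := (h.sub a).1

theorem opp' (a : S v φ) : ∃ x ξ, S x ξ ∧ β ξ v ≠ 0 ∧ β φ x ≠ 0 :=
  let ⟨x, ξ, h1, h2, h3⟩ := h.opp (h.t a) (h.sub a).2.1 (h.sub a).2.2
  ⟨x, ξ, h.cl1 a h1 (ne_r h3) h2, h2, h3⟩

theorem mid' (a : S v φ) (b : S w ψ) : ∃ x ξ, S x ξ ∧ β ξ v ≠ 0 ∧ β ψ x ≠ 0 :=
  let ⟨x, ξ, h1, h2, h3⟩ := h.mid a b
  ⟨x, ξ, h.cl1 a h1 (ne_r h3) h2, h2, h3⟩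

theorem of_l (a : S v φ) (b : T v ψ) (c : ψ ≠ 0) : S v ψ :=
  let ⟨_, _, h1, h2, h3⟩ := h.opp b (h.sub a).2.1 c
  h.cl1 (h.cl1 a h1 (ne_r h3) h2) b (h.sub a).2.1 h3

theorem of_r (a : S v φ) (b : T w φ) (c : w ≠ 0) : S w φ := h.flip'.of_l a b c

theorem smul' (a : S v φ) {c d : F} (hc : c ≠ 0) (hd : d ≠ 0) : S (c • v) (d • φ) :=
  have := h.of_r a (h.smul_l c (h.t a)) (smul_ne_zero hc (h.sub a).2.1)
  h.of_l this (h.smul_r d (h.t this)) (smul_ne_zero hd (h.sub a).2.2)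

theorem la_step (b : T w ψ) (c : β ψ v ≠ 0) (l : ∀ x, ∃ φ, φ ≠ 0 ∧ T v φ ∧ β φ x = 0) (x : V) :
    ∃ φ, φ ≠ 0 ∧ T w φ ∧ β φ x = 0 := by
  obtain ⟨χ, h1, h2, h3⟩ := l w
  have h4 := h.comm b h2 c h3
  by_cases e : β χ x = 0
  · exact ⟨χ, h1, h4, e⟩
  · exact ⟨_, ne_l (β := β) (v := v) (by simp [h.dot h2, c]), h.add_r b (h.smul_r (-β ψ x / β χ x) h4),
      by simp [e]⟩

theorem la (a : S v φ) (b : S w ψ) (c : β φ w ≠ 0) (d : β ψ v = 0) (e : S u χ) (x : V) :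
    ∃ φ, φ ≠ 0 ∧ T u φ ∧ β φ x = 0 := by
  obtain ⟨y, η, h1, h2, h3⟩ := h.mid a e
  refine h.la_step (h.t e) h3 (h.la_step h1 h2 fun x => ?_) x
  by_cases e : β ψ x = 0
  · exact ⟨ψ, (h.sub b).2.2, h.comm (h.t a) (h.t b) c d, e⟩
  · exact ⟨_, ne_l (β := β) (v := w) (by simp [h.dot (h.t b), c]),
      h.add_r (h.t a) (h.smul_r (-β φ x / β ψ x) (h.comm (h.t a) (h.t b) c d)), by simp [e]⟩

/-- The linear case. -/
theorem lin {v₀ w₀ : V} {φ₀ ψ₀ : W} (a : S v₀ φ₀) (b : S w₀ ψ₀) (c : β φ₀ w₀ ≠ 0) (d : β ψ₀ v₀ = 0)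
    (hv : S v φ) (hw : S w ψ) (e : β ψ v = 0) : T v ψ := by
  obtain ⟨x, ξ, h1, h2, h3⟩ := h.mid hv hw
  obtain ⟨φ', a1, a2, a3⟩ := h.la a b c d hv x
  obtain ⟨w', b1, b2, b3⟩ := h.flip'.la b a c d hw ξ
  have k : ∀ z, T z ψ → β φ' z ≠ 0 → T v ψ := fun z hz n => h.comm a2 hz n e
  by_cases n : β φ' w' = 0; swap
  · exact k w' b2 n
  have c1 : T x φ' := h.comm h1 a2 h2 a3
  have c2 : T w' φ' := h.comm (h.comm b2 h1 h3 b3) a2 h2 n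
  obtain ⟨z, ζ, d1, d2, d3⟩ := h.opp c2 b1 a1
  have d4 := h.conj' c1 d1 (-β ψ z / (β φ' z * β ψ x))
  refine k _ (h.comm d4 b2 (by simpa [n] using d2) ?_) (by simpa [a3] using d3)
  simp only [map_add, map_smul, smul_eq_mul]
  field_simp
  ring

theorem add_of_ne (a : S v φ) (b : S w ψ) (c : β φ w ≠ 0) : ∃ χ, S (v + w) χ := by
  have := h.conj' (h.t a) (h.t b) (β φ w)⁻¹
  rw [inv_mul_cancel₀ c, one_smul, add_comm] at this
  refine ⟨_, h.cl2 a this (fun e => ?_) (by simpa [h.dot (h.t a)] using c)⟩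
  have e2 := congrArg (β · v) e
  simp [h.dot (h.t a)] at e2
  exact (h.sub b).2.2 (by simpa [e2] using e)

theorem add_lin (l : ∀ {v φ w ψ}, S v φ → S w ψ → β ψ v = 0 → T v ψ) (a : S v φ) (b : S w ψ) :
    v + w = 0 ∨ ∃ χ, S (v + w) χ := by
  by_cases c : β φ w = 0
  · exact or_iff_not_imp_left.2 fun n => ⟨φ, h.of_r a (h.add_l (h.t a) (l b a c)) n⟩
  · exact Or.inr (h.add_of_ne a b c)

/-- Normalised opposite pairs. -/
def E (β : W →ₗ[F] V →ₗ[F] F) (S : V → W → Prop) (a b : V × W) : Prop :=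
  S a.1 a.2 ∧ S b.1 b.2 ∧ β a.2 b.1 ≠ 0 ∧ β a.2 b.1 + β b.2 a.1 = 0

variable {a b c d o : V × W}

omit h in
theorem E.ne (e : E β S a b) : β b.2 a.1 ≠ 0 := fun n => e.2.2.1 (by simpa [n] using e.2.2.2)

omit h in
theorem E.symm (e : E β S a b) : E β S b a := ⟨e.2.1, e.1, e.ne, (add_comm _ _).trans e.2.2.2⟩

theorem e_add (e : E β S a b) (s : F) : E β S b (a + s • b) := by
  have := h.conj' (h.t e.2.1) (h.t e.1) (s / β b.2 a.1)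
  rw [div_mul_cancel₀ _ e.ne, eq_neg_of_add_eq_zero_left e.2.2.2, mul_neg, div_mul_cancel₀ _ e.ne, neg_smul,
    sub_neg_eq_add] at this
  have h0 := h.dot (h.t e.2.1)
  exact ⟨e.2.1, h.cl2 e.2.1 this (ne_l (β := β) (v := b.1) (by simpa [h0] using e.2.2.1)) (by simpa [h0] using e.ne),
    by simpa [h0] using e.ne, by simpa [h0] using e.symm.2.2.2⟩

variable (z : ∀ {v φ w ψ}, S v φ → S w ψ → β ψ v = 0 → β φ w = 0)
include z

theorem e_mk (ha : S a.1 a.2) (hb : S w ψ) (n : β ψ a.1 ≠ 0) : ∃ k : F, k ≠ 0 ∧ E β S a (w, k • ψ) := by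
  have n' : β a.2 w ≠ 0 := fun e => n (z hb ha e)
  refine ⟨-β a.2 w / β ψ a.1, by simp [n, n'], ha, ?_, n', by simp [n]⟩
  simpa using h.smul' hb one_ne_zero (show -β a.2 w / β ψ a.1 ≠ 0 by simp [n, n'])

theorem rel₂ (e : E β S a b) (e' : E β S b c) : β a.2 c.1 + β c.2 a.1 = 0 := by
  have h1 := z e.1 (h.e_add e'.symm (-β c.2 a.1 / β b.2 a.1)).2.1 (by simp [e.ne])
  simp only [Prod.fst_add, Prod.smul_fst, map_add, map_smul, smul_eq_mul, eq_neg_of_add_eq_zero_left e.2.2.2] at h1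
  rw [mul_neg, div_mul_cancel₀ _ e.ne, neg_neg] at h1
  exact h1

theorem rel_of (ha : S a.1 a.2) (r : ReflTransGen (E β S) a b) :
    β a.2 b.1 + β b.2 a.1 = 0 ∧ ∃ c, E β S a c ∧ (c = b ∨ E β S c b) := by
  induction r with
  | refl =>
    obtain ⟨x, ξ, h1, h2, -⟩ := h.opp' ha
    obtain ⟨k, -, e⟩ := h.e_mk z ha h1 h2
    exact ⟨by simp [h.dot (h.t ha)], _, e, Or.inr e.symm⟩
  | @tail b d _ e ih =>
    obtain ⟨r, c, e1, e2⟩ := ih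
    by_cases n : β a.2 b.1 = 0; swap
    · exact ⟨h.rel₂ z ⟨ha, e.1, n, r⟩ e, b, ⟨ha, e.1, n, r⟩, Or.inr e⟩
    replace e2 := e2.resolve_left fun e3 => e1.2.2.1 (e3 ▸ n)
    have n' : β b.2 a.1 = 0 := by simpa [n] using r
    obtain ⟨s, hs⟩ : ∃ s : F, β c.2 d.1 + s * β b.2 d.1 ≠ 0 := by
      by_cases m : β c.2 d.1 = 0
      exacts [⟨1, by simpa [m] using e.2.2.1⟩, ⟨0, by simpa using m⟩]
    have e3 := (h.e_add e2 s).2.1
    have e4 : E β S a (c + s • b) := ⟨ha, e3, by simpa [n] using e1.2.2.1, by simpa [n, n'] using e1.2.2.2⟩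
    have e5 : E β S (c + s • b) d := ⟨e3, e.2.1, by simpa using hs, by
      simp only [Prod.fst_add, Prod.smul_fst, Prod.snd_add, Prod.smul_snd, map_add, map_smul, smul_eq_mul,
        LinearMap.add_apply, LinearMap.smul_apply]
      linear_combination h.rel₂ z e2 e + s * e.2.2.2⟩
    exact ⟨h.rel₂ z e4 e5, _, e4, Or.inr e5⟩

/-- The symplectic case. -/
theorem symp (fa : ∀ {v φ w ψ}, S v φ → S w ψ → (∀ x ξ, S x ξ → β ξ (v - w) = 0 ∧ β (φ - ψ) x = 0) → v = w ∧ φ = ψ) :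
    ∃ M : Submodule F (V × W), (∀ a ∈ M, a ≠ 0 → S a.1 a.2) ∧ (∀ a ∈ M, ∀ b ∈ M, β a.2 b.1 + β b.2 a.1 = 0) ∧
      ∀ v φ, S v φ → ∃ k : F, k ≠ 0 ∧ (v, k • φ) ∈ M := by
  by_cases hS : ∃ o : V × W, S o.1 o.2; swap
  · exact ⟨⊥, fun a ha n => absurd ha n, fun a ha b hb => by simp [(Submodule.mem_bot F).1 ha, (Submodule.mem_bot F).1 hb],
      fun v φ s => absurd ⟨(v, φ), s⟩ hS⟩
  obtain ⟨o, ho⟩ := hS
  let N (a : V × W) := ReflTransGen (E β S) o a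
  have s : ∀ {a}, N a → S a.1 a.2 := fun r => by
    rcases r.cases_tail with rfl | ⟨_, -, e⟩
    exacts [ho, e.2.1]
  have rel : ∀ {a b}, N a → N b → β a.2 b.1 + β b.2 a.1 = 0 := fun ra rb =>
    haveI : Std.Symm (E β S) := ⟨fun _ _ => E.symm⟩
    (h.rel_of z (s ra) ((symm ra).trans rb)).1
  have sc : ∀ {v φ}, S v φ → ∃ k : F, k ≠ 0 ∧ N (v, k • φ) := fun hv => by
    obtain ⟨x, ξ, h1, h2, h3⟩ := h.mid' ho hv
    obtain ⟨k, -, e⟩ := h.e_mk z ho h1 h2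
    obtain ⟨l, hl, e'⟩ := h.e_mk z e.2.1 hv h3
    exact ⟨l, hl, (ReflTransGen.single e).tail e'⟩
  have h1 : ∀ {a c} (t : F), N a → N c → β a.2 c.1 ≠ 0 → N (a + t • c) := fun t ra rc n =>
    rc.tail (h.e_add ⟨s ra, s rc, n, rel ra rc⟩ t)
  have z' : ∀ {a b}, N a → N b → β a.2 b.1 = 0 → β b.2 a.1 = 0 := fun ra rb => z (s rb) (s ra)
  have h2 : ∀ {a b c}, N a → N b → N c → β a.2 c.1 ≠ 0 → β b.2 c.1 ≠ 0 → β a.2 c.1 + β b.2 c.1 ≠ 0 → N (a + b) :=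
    fun {a b c} ra rb rc n1 n2 n3 => by
      by_cases n : β a.2 b.1 = 0; swap
      · simpa using h1 1 ra rb n
      have := h1 (-1) (h1 1 (h1 1 ra rc n1) rb (by simpa [n] using fun e => n2 (z' rc rb e))) rc
        (by simpa [h.dot (h.t (s rc))] using n3)
      rwa [show a + (1 : F) • c + (1 : F) • b + (-1 : F) • c = a + b by module] at this
  have h3 : ∀ {a b c}, N a → N b → N c → β a.2 c.1 ≠ 0 → β a.2 c.1 + β b.2 c.1 ≠ 0 → N (a + b) :=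
    fun {a b c} ra rb rc n1 n3 => by
      by_cases n2 : β b.2 c.1 = 0; swap
      · exact h2 ra rb rc n1 n2 n3
      by_cases n : β a.2 b.1 = 0; swap
      · simpa using h1 1 ra rb n
      obtain ⟨x, ξ, a1, a2, a3⟩ := h.mid' (s ra) (s rb)
      obtain ⟨k, -, rd⟩ := sc a1
      replace a2 : β a.2 x ≠ 0 := fun e => a2 (z a1 (s ra) e)
      by_cases n4 : β a.2 x + β b.2 x = 0; swap
      · exact h2 ra rb rd a2 a3 n4
      obtain ⟨c, rc, n1, n2, n5⟩ : ∃ c, N c ∧ β a.2 c.1 ≠ 0 ∧ β b.2 c.1 = 0 ∧ β c.2 x ≠ 0 := by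
        by_cases n5 : β c.2 x = 0
        · exact ⟨_, h1 1 rc ra fun e => n1 (z' rc ra e), by simpa [h.dot (h.t (s ra))] using n1,
            by simp [n2, z' ra rb n], by simpa [n5] using a2⟩
        · exact ⟨c, rc, n1, n2, n5⟩
      obtain ⟨t, ht, n6⟩ := ex_c h.two a2 (β a.2 c.1)
      refine h2 ra rb (h1 t rd rc fun e => n5 (z' rd rc e)) (by simpa using n6) (by simpa [n2] using a3) ?_
      simp only [Prod.fst_add, Prod.smul_fst, map_add, map_smul, smul_eq_mul, n2]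
      exact fun e => mul_ne_zero ht n1 (by linear_combination e - n4)
  have sm : ∀ {a} {t : F}, t ≠ 0 → N a → N (t • a) := fun {a t} ht ra => by
    obtain ⟨-, c, e, -⟩ := h.rel_of z (s ra) .refl
    exact (ra.tail e).tail ⟨e.2.1, h.smul' (s ra) ht ht, by simpa [ht] using e.ne,
      by simpa [← mul_add, ht] using e.symm.2.2.2⟩
  refine ⟨⟨⟨⟨{a | a = 0 ∨ N a}, ?_⟩, Or.inl rfl⟩, ?_⟩, fun a ha n => s (ha.resolve_left n), ?_,
    fun v φ hv => let ⟨k, hk, r⟩ := sc hv; ⟨k, hk, Or.inr r⟩⟩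
  · rintro a b (rfl | ra) (rfl | rb)
    · simp
    · simp [rb]
    · simp [ra]
    by_cases n : ∀ c, N c → β a.2 c.1 + β b.2 c.1 = 0
    · obtain ⟨e1, e2⟩ := fa (s ra) (s (sm (neg_ne_zero.2 one_ne_zero) rb)) fun x ξ hx => by
        obtain ⟨k, hk, r⟩ := sc hx
        have := n _ r
        have a1 := rel ra r
        have a2 := rel rb r
        simp only [map_smul, LinearMap.smul_apply, smul_eq_mul] at a1 a2 this
        exact ⟨mul_left_cancel₀ hk (by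
          simp only [neg_smul, one_smul, Prod.fst_neg, sub_neg_eq_add, map_add]
          linear_combination a1 + a2 - this), by simpa using this⟩
      exact Or.inl (Prod.ext (by simp [e1]) (by simp [e2]))
    push Not at n
    obtain ⟨c, rc, n⟩ := n
    by_cases n1 : β a.2 c.1 = 0
    · exact Or.inr (add_comm a b ▸ h3 rb ra rc (by simpa [n1] using n) (by rwa [add_comm]))
    · exact Or.inr (h3 ra rb rc n1 n)
  · rintro t a (rfl | ra)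
    · simp
    by_cases ht : t = 0
    exacts [Or.inl (by simp [ht]), Or.inr (sm ht ra)]
  · rintro a (rfl | ra) b (rfl | rb)
    exacts [by simp, by simp, by simp, rel ra rb]

omit z in
/-- The dichotomy: linear or symplectic. -/
theorem dich (fa : ∀ {v φ w ψ}, S v φ → S w ψ → (∀ x ξ, S x ξ → β ξ (v - w) = 0 ∧ β (φ - ψ) x = 0) → v = w ∧ φ = ψ) :
    (∀ {v φ w ψ}, S v φ → S w ψ → β ψ v = 0 → T v ψ) ∨
    ∃ M : Submodule F (V × W), (∀ a ∈ M, a ≠ 0 → S a.1 a.2) ∧ (∀ a ∈ M, ∀ b ∈ M, β a.2 b.1 + β b.2 a.1 = 0) ∧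
      ∀ v φ, S v φ → ∃ k : F, k ≠ 0 ∧ (v, k • φ) ∈ M := by
  by_cases z : ∀ {v φ w ψ}, S v φ → S w ψ → β ψ v = 0 → β φ w = 0
  · exact Or.inr (h.symp z fa)
  · push Not at z
    obtain ⟨v, φ, w, ψ, a, b, c, d⟩ := z
    exact Or.inl (h.lin a b d c)

omit z in
theorem add_cen (fa : ∀ {v φ w ψ}, S v φ → S w ψ → (∀ x ξ, S x ξ → β ξ (v - w) = 0 ∧ β (φ - ψ) x = 0) → v = w ∧ φ = ψ)
    (a : S v φ) (b : S w ψ) : v + w = 0 ∨ ∃ χ, S (v + w) χ := by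
  rcases h.dich fa with l | ⟨M, h1, -, h2⟩
  · exact h.add_lin l a b
  obtain ⟨k, -, h3⟩ := h2 v φ a
  obtain ⟨l, -, h4⟩ := h2 w ψ b
  exact or_iff_not_imp_left.2 fun n => ⟨_, h1 _ (M.add_mem h3 h4) fun e => n (congrArg Prod.fst e)⟩

end Cmp

end Cfsg.Lib.TvS
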