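import Cfsg.Agent.Lib.RI.Tv1
import Cfsg.Agent.Lib.Symp.Simple

/-!
# McLaughlin's theorem on groups generated by transvections over a prime field of odd order.
-/

set_option autoImplicit false

namespace Cfsg.Lib.TvS

open Relation Module Subgroup

variable {F V : Type*} [Field F] [AddCommGroup V] [Module F V] {p : ℕ} {H : Subgroup (V ≃ₗ[F] V)}
  {S : V → Dual F V → Prop} {v w x : V} {φ ψ : Dual F V} {g : V ≃ₗ[F] V}

/-- The transvections in `H`. -/
def TH (H : Subgroup (V ≃ₗ[F] V)) (v : V) (φ : Dual F V) : Prop := φ v = 0 ∧ ∃ g ∈ H, ∀ x, g x = x + φ x • v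

theorem tv_inv (h0 : φ v = 0) (h : ∀ x, g x = x + φ x • v) (x : V) : g⁻¹ x = x - φ x • v :=
  g.injective (by rw [h (x - _)]; simp [h0])

theorem tv_pow (h0 : φ v = 0) (h : ∀ x, g x = x + φ x • v) (n : ℕ) (x : V) : (g ^ n) x = x + (n * φ x) • v := by
  induction n with
  | zero => simp
  | succ n ih => rw [pow_succ', LinearEquiv.mul_apply, ih, h]; simp [h0, add_mul, add_smul, add_assoc]

/-- The hypotheses of McLaughlin's theorem. -/
structure Gen (p : ℕ) (H : Subgroup (V ≃ₗ[F] V)) : Prop where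
  hp : p.Prime
  three : 3 ≤ p
  char : CharP F p
  nat : ∀ c : F, ∃ n : ℕ, c = n
  gen : ∀ K : Subgroup (V ≃ₗ[F] V), (∀ g v φ, TH H v φ → (∀ x, g x = x + φ x • v) → g ∈ K) → H ≤ K
  core : ∀ N : Subgroup H, N.Normal → IsPGroup p N → N = ⊥

/-- Centres. -/
def cen (S : V → Dual F V → Prop) : Submodule F V := Submodule.span F {v | ∃ φ, S v φ}

/-- Axes. -/
def ax (S : V → Dual F V → Prop) : Submodule F (Dual F V) := Submodule.span F {φ | ∃ v, S v φ}

/-- Fixed vectors. -/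
def fx (S : V → Dual F V → Prop) : Submodule F V := (ax S).dualCoannihilator

/-- The group generated by a set of transvections. -/
def grp (S : V → Dual F V → Prop) : Subgroup (V ≃ₗ[F] V) := closure {g | ∃ v φ, S v φ ∧ ∀ x, g x = x + φ x • v}

theorem mem_cen (h : S v φ) : v ∈ cen S := Submodule.subset_span ⟨φ, h⟩

theorem mem_ax (h : S v φ) : φ ∈ ax S := Submodule.subset_span ⟨v, h⟩

theorem cen_ker (h : ∀ v ψ, S v ψ → φ v = 0) (hx : x ∈ cen S) : φ x = 0 :=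
  (Submodule.span_le (p := LinearMap.ker φ)).2 (fun v e => e.elim (h v)) hx

theorem mem_fx : x ∈ fx S ↔ ∀ v φ, S v φ → φ x = 0 :=
  (Submodule.mem_dualCoannihilator _).trans ⟨fun h _ _ e => h _ (mem_ax e), fun h _ e =>
    (Submodule.span_le (p := LinearMap.ker (Dual.eval F V x))).2 (fun φ e => e.elim (h · φ)) e⟩

theorem grp_fix (hg : g ∈ grp S) (hx : x ∈ fx S) : g x = x := by
  induction hg using closure_induction with
  | mem g hg => obtain ⟨v, φ, h, e⟩ := hg; simp [e, mem_fx.1 hx v φ h]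
  | one => rfl
  | mul a b _ _ h1 h2 => rw [LinearEquiv.mul_apply, h2, h1]
  | inv a _ h => exact a.injective (by simp [h])

theorem sl_gen_abs [FiniteDimensional F V] {L : Subgroup (V ≃ₗ[F] V)}
    (h : ∀ g v (φ : Dual F V), φ v = 0 → (∀ x, g x = x + φ x • v) → g ∈ L) (hg : LinearMap.det (g : V →ₗ[F] V) = 1) :
    g ∈ L := by
  let b := finBasis F V
  let e := Matrix.SpecialLinearGroup.toLin_equiv b
  have := Linear.eq_top_of_transvection_mem (L.comap (SpecialLinearGroup.toLinearEquiv.comp e.toMonoidHom))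
    fun i j hij c => h _ (b i) (c • b.coord j) (by simp [hij]) fun x => by
      change Matrix.toLin b b (1 + Matrix.single i j c) x = _
      simp [Matrix.toLin_apply, Matrix.single_mulVec, Function.update_apply]
  have h1 := this.ge (mem_top (e.symm ⟨g, Units.ext ((LinearEquiv.coe_det g).trans hg)⟩))
  rwa [mem_comap, MonoidHom.comp_apply, MulEquiv.coe_toMonoidHom, e.apply_symm_apply] at h1

/-- Restriction to an invariant subspace. -/
def resHom (K : Subgroup (V ≃ₗ[F] V)) (Y : Submodule F V) (h : ∀ g ∈ K, Y.map (g : V →ₗ[F] V) = Y) :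
    K →* (Y ≃ₗ[F] Y) := MonoidHom.mk' (fun g => g.1.ofSubmodules Y Y (h g.1 g.2)) fun _ _ => rfl

namespace Gen

variable (G : Gen p H)
include G

theorem ts : TS (LinearMap.id : Dual F V →ₗ[F] _) (TH H) := by
  have := G.char
  refine ⟨fun e => ?_, And.left, fun {v φ} c ⟨h, g, hg, e⟩ => ⟨by simp [h], ?_⟩,
    fun {v φ} c ⟨h, g, hg, e⟩ => ⟨by simp [h], ?_⟩, fun ⟨h, g, hg, e⟩ ⟨h', g', hg', e'⟩ => ⟨by simp [h, h'], g * g',
      mul_mem hg hg', fun x => by simp [e, e', h']; abel⟩, fun ⟨h, g, hg, e⟩ ⟨h', g', hg', e'⟩ => ⟨by simp [h, h'],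
      g * g', mul_mem hg hg', fun x => by simp [e, e', h, add_smul]; abel⟩,
    fun ⟨h, g, hg, e⟩ ⟨h', g', hg', e'⟩ => ⟨by simp [h, h', mul_comm], g * g' * g⁻¹,
      mul_mem (mul_mem hg hg') (inv_mem hg), fun x => ?_⟩⟩
  · have := Nat.le_of_dvd two_pos ((CharP.cast_eq_zero_iff F p 2).1 e)
    have := G.three
    omega
  · obtain ⟨n, rfl⟩ := G.nat c
    exact ⟨g ^ n, pow_mem hg n, fun x => by rw [tv_pow h e, smul_smul, mul_comm]⟩
  · obtain ⟨n, rfl⟩ := G.nat c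
    exact ⟨g ^ n, pow_mem hg n, fun x => by simp [tv_pow h e]⟩
  · simp only [LinearEquiv.mul_apply, tv_inv h e, e, e', map_add, map_sub, map_smul, h, LinearMap.id_apply,
      LinearMap.sub_apply, LinearMap.smul_apply, smul_eq_mul]
    module

theorem inv {Y : Submodule F V} (hY : ∀ v φ, TH H v φ → v ≠ 0 → ∀ y ∈ Y, φ y ≠ 0 → v ∈ Y) (hg : g ∈ H) :
    Y.map (g : V →ₗ[F] V) = Y := by
  refine G.gen ⟨⟨⟨{g | Y.map (g : V →ₗ[F] V) = Y}, fun {a b} ha hb => ?_⟩, Y.map_id⟩, fun {a} ha => ?_⟩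
    (fun g v φ t e => ?_) hg
  · exact (Y.map_comp b.toLinearMap a.toLinearMap).trans (by rw [hb, ha])
  · exact (Submodule.map_symm_eq_iff a).2 ha
  have k : ∀ y ∈ Y, φ y • v ∈ Y := fun y hy => by
    by_cases h : v = 0 ∨ φ y = 0
    · rcases h with h | h <;> simp [h]
    · exact Y.smul_mem _ (hY v φ t (not_or.1 h).1 y hy (not_or.1 h).2)
  refine le_antisymm ?_ fun y hy => ⟨g⁻¹ y, tv_inv t.1 e y ▸ Y.sub_mem hy (k y hy), by simp⟩
  rintro _ ⟨y, hy, rfl⟩
  exact (e y).symm ▸ Y.add_mem hy (k y hy)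

theorem unip {Y Y' : Submodule F V} (hY : ∀ g ∈ H, Y.map (g : V →ₗ[F] V) = Y)
    (hY' : ∀ g ∈ H, Y'.map (g : V →ₗ[F] V) = Y') (hg : g ∈ H) (h1 : ∀ v, g v - v ∈ Y') (h2 : ∀ v ∈ Y', g v - v ∈ Y)
    (h3 : ∀ v ∈ Y, g v = v) : g = 1 := by
  have a : ∀ g : H, ∀ y ∈ Y, g.1 y ∈ Y := fun g y hy => (hY g g.2).le ⟨y, hy, rfl⟩
  have a' : ∀ g : H, ∀ y ∈ Y', g.1 y ∈ Y' := fun g y hy => (hY' g g.2).le ⟨y, hy, rfl⟩
  let N : Subgroup H :=
    { carrier := {g | (∀ v, g.1 v - v ∈ Y') ∧ (∀ v ∈ Y', g.1 v - v ∈ Y) ∧ ∀ v ∈ Y, g.1 v = v}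
      mul_mem' := fun {a b} ha hb => ⟨fun v => by simpa using add_mem (ha.1 (b.1 v)) (hb.1 v), fun v hv => by
        simpa using add_mem (ha.2.1 _ (a' b v hv)) (hb.2.1 v hv), fun v hv => by simp [ha.2.2 v hv, hb.2.2 v hv]⟩
      one_mem' := by simp
      inv_mem' := fun {a} ha => ⟨fun v => by simpa using neg_mem (ha.1 (a⁻¹.1 v)), fun v hv => by
        simpa using neg_mem (ha.2.1 _ (a' a⁻¹ v hv)), fun v hv => a.1.injective (by simp [ha.2.2 v hv])⟩ }
  have := G.char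
  have hN := G.core N ⟨fun n hn k => ⟨fun v => by simpa using a' k _ (hn.1 (k⁻¹.1 v)), fun v hv => by
    simpa using a k _ (hn.2.1 _ (a' k⁻¹ v hv)), fun v hv => by simpa using congrArg k.1 (hn.2.2 _ (a k⁻¹ v hv))⟩⟩
    fun n => ⟨1, Subtype.ext (Subtype.ext (LinearEquiv.toLinearMap_injective ?_))⟩
  · exact congrArg Subtype.val (mem_bot.1 (hN.le (show (⟨g, hg⟩ : H) ∈ N from ⟨h1, h2, h3⟩)))
  obtain ⟨r, hr⟩ := (Commute.one_left ((n.1.1 : V →ₗ[F] V) - 1)).exists_add_pow_prime_eq G.hp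
  have : ((n.1.1 : V →ₗ[F] V) - 1) ^ 3 = 0 := LinearMap.ext fun v => by
    simpa [pow_succ, sub_eq_zero] using n.2.2.2 _ (n.2.2.1 _ (n.2.1 v))
  rw [pow_eq_zero_of_le G.three this, add_sub_cancel, ← map_natCast (algebraMap F _), CharP.cast_eq_zero] at hr
  exact (map_pow LinearEquiv.automorphismGroup.toLinearMapMonoidHom n.1.1 _).trans (by simpa [← Module.End.one_eq_id] using hr)

theorem opp (t : TH H v φ) (hv : v ≠ 0) (hφ : φ ≠ 0) : ∃ x ξ, TH H x ξ ∧ ξ v ≠ 0 ∧ φ x ≠ 0 := by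
  by_contra n
  let S (x : V) (ξ : Dual F V) := ReflTransGen (Ar LinearMap.id (TH H)) (v, φ) (x, ξ)
  have h1 := fun g => G.inv (Y := cen S) (g := g) fun w ψ t hw y hy e => by
    by_contra h
    exact e (cen_ker (fun x ξ r => by_contra fun e => h (mem_cen (r.tail ⟨t, hw, e⟩))) hy)
  obtain ⟨h0, g, hg, e⟩ := t
  have h2 : ∀ y ∈ cen S, φ y = 0 := fun y => cen_ker fun x ξ r => by_contra fun e => by
    rcases (reflTransGen_iff_eq_or_transGen.1 r) with r | r
    exacts [e (by rw [show x = v from congrArg Prod.fst r, h0]), n (G.ts.short' r e)]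
  obtain rfl := G.unip h1 h1 hg (fun x => by simpa [e] using (cen S).smul_mem _ (mem_cen .refl))
    (fun x hx => by simp [e, h2 x hx]) fun x hx => by simp [e, h2 x hx]
  exact hφ (LinearMap.ext fun x => by simpa [hv] using e x)

variable (C : Cmp LinearMap.id (TH H) S)
include C

theorem cen_inv (hg : g ∈ H) : (cen S).map (g : V →ₗ[F] V) = cen S := G.inv (fun w ψ t hw y hy e => by
  by_contra h
  exact e (cen_ker (fun x ξ r => by_contra fun e => h (mem_cen (C.cl1 r t hw e))) hy)) hg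

theorem faith (a : S v φ) (b : S w ψ) (h : ∀ x ξ, S x ξ → ξ (v - w) = 0 ∧ (φ - ψ) x = 0) : v = w ∧ φ = ψ := by
  obtain ⟨h1, g, hg, e⟩ := C.t a
  obtain ⟨h2, g', hg', e'⟩ := C.t b
  have h3 : φ w = 0 := by simpa [h1] using (h v φ a).1
  have e1 : ∀ x, (g * g'⁻¹) x - x = φ x • v - ψ x • w := fun x => by
    rw [LinearEquiv.mul_apply, tv_inv h2 e', e]; simp [h3]; abel
  have := G.unip (Y := cen S ⊓ fx S) (fun g => G.inv fun w ψ t hw y hy e => by
    by_contra h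
    exact e (cen_ker (fun x ξ r => by_contra fun e' => e (mem_fx.1 hy.2 _ _ (C.cl1 r t hw e'))) hy.1))
    (fun g => G.cen_inv C) (mul_mem hg (inv_mem hg'))
    (fun x => e1 x ▸ sub_mem (Submodule.smul_mem _ _ (mem_cen a)) (Submodule.smul_mem _ _ (mem_cen b)))
    (fun x hx => by
      rw [e1, show ψ x = φ x from (sub_eq_zero.1 (cen_ker (φ := φ - ψ) (fun x ξ r => (h x ξ r).2) hx)).symm, ← smul_sub]
      exact Submodule.smul_mem _ _ ⟨sub_mem (mem_cen a) (mem_cen b), mem_fx.2 fun x ξ r => (h x ξ r).1⟩)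
    fun x hx => sub_eq_zero.1 (by rw [e1]; simp [mem_fx.1 hx.2 _ _ a, mem_fx.1 hx.2 _ _ b])
  simp only [this, LinearEquiv.coe_one, id, sub_self, eq_comm (a := (0 : V)), sub_eq_zero] at e1
  obtain ⟨x, ξ, h4, -, h5⟩ := C.opp' a
  obtain rfl : v = w := smul_right_injective V h5 ((e1 x).trans (by rw [← sub_eq_zero.1 (h x ξ h4).2]; rfl))
  exact ⟨rfl, LinearMap.ext fun x => smul_left_injective F (C.sub a).2.1 (e1 x)⟩

theorem of_cen (hx : x ∈ cen S) : x = 0 ∨ ∃ φ, S x φ := by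
  induction hx using Submodule.span_induction with
  | mem x h => exact Or.inr h
  | zero => exact Or.inl rfl
  | add x y _ _ h1 h2 =>
    rcases h1 with rfl | ⟨φ, h1⟩
    · rwa [zero_add]
    rcases h2 with rfl | ⟨ψ, h2⟩
    exacts [Or.inr ⟨φ, by rwa [add_zero]⟩, C.add_cen (G.faith C) h1 h2]
  | smul c x _ h =>
    by_cases hc : c = 0
    · simp [hc]
    · exact h.imp (fun e => by simp [e]) fun ⟨φ, h⟩ => ⟨_, C.smul' h hc hc⟩

theorem of_ax (hx : φ ∈ ax S) : φ = 0 ∨ ∃ x, S x φ := by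
  induction hx using Submodule.span_induction with
  | mem x h => exact Or.inr h
  | zero => exact Or.inl rfl
  | add x y _ _ h1 h2 =>
    rcases h1 with rfl | ⟨φ, h1⟩
    · rwa [zero_add]
    rcases h2 with rfl | ⟨ψ, h2⟩
    exacts [Or.inr ⟨φ, by rwa [add_zero]⟩,
      C.flip'.add_cen (fun a b h => (G.faith C a b fun x ξ r => (h ξ x r).symm).symm) h1 h2]
  | smul c x _ h =>
    by_cases hc : c = 0
    · simp [hc]
    · exact h.imp (fun e => by simp [e]) fun ⟨φ, h⟩ => ⟨_, C.smul' h hc hc⟩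

theorem cen_fx (hx : x ∈ cen S) (h : x ∈ fx S) : x = 0 :=
  (G.of_cen C hx).resolve_right fun ⟨_, a⟩ => let ⟨_, _, h1, h2, _⟩ := C.opp' a; h2 (mem_fx.1 h _ _ h1)

omit G in
theorem grp_le : grp S ≤ H := (closure_le _).2 fun g ⟨_, _, h, e⟩ =>
  let ⟨_, g', hg, e'⟩ := C.t h
  (LinearEquiv.ext fun x => (e' x).trans (e x).symm : g' = g) ▸ hg

/-- The group induced on the span of the centres of a component. -/
theorem range_res [FiniteDimensional F V] : ∃ ρ : grp S →* (cen S ≃ₗ[F] cen S),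
    (∀ (h : grp S) (v : cen S), ((ρ h v : cen S) : V) = (h : V ≃ₗ[F] V) (v : V)) ∧
    ((ρ.range : Set (cen S ≃ₗ[F] cen S)) = {f : cen S ≃ₗ[F] cen S | LinearMap.det (f : cen S →ₗ[F] cen S) = 1} ∨
      ∃ B : LinearMap.BilinForm F (cen S), B.IsAlt ∧ B.Nondegenerate ∧
        (ρ.range : Set (cen S ≃ₗ[F] cen S)) = {f : cen S ≃ₗ[F] cen S | ∀ x y, B (f x) (f y) = B x y}) := by
  let ρ := resHom (grp S) (cen S) fun g hg => G.cen_inv C (grp_le C hg)
  have r : ∀ (h : grp S) (v : cen S), ((ρ h v : cen S) : V) = (h : V ≃ₗ[F] V) (v : V) := fun _ _ => rfl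
  have le : ∀ L : Subgroup (cen S ≃ₗ[F] cen S), (∀ (v : cen S) φ, S v φ → ∀ f : cen S ≃ₗ[F] cen S,
      (∀ x, f x = x + φ x • v) → f ∈ L) → ρ.range ≤ L := fun L hL => by
    rintro _ ⟨⟨g, hg⟩, rfl⟩
    induction hg using closure_induction with
    | mem g hg => exact let ⟨v, φ, h, e⟩ := hg; hL ⟨v, mem_cen h⟩ φ h _ fun x => Subtype.ext (e x)
    | one => exact (map_one ρ).symm ▸ one_mem L
    | mul a b ha hb h1 h2 => exact (map_mul ρ ⟨a, ha⟩ ⟨b, hb⟩).symm ▸ mul_mem h1 h2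
    | inv a ha h => exact (map_inv ρ ⟨a, ha⟩).symm ▸ inv_mem h
  have ge : ∀ (v : cen S) φ, v = 0 ∨ φ = 0 ∨ S v φ → ∀ f : cen S ≃ₗ[F] cen S, (∀ x, f x = x + φ x • v) →
      f ∈ ρ.range := fun v φ h f e => by
    rcases h with h | h | h
    · exact (LinearEquiv.ext fun x => by simp [e, h] : 1 = f) ▸ one_mem _
    · exact (LinearEquiv.ext fun x => by simp [e, h] : 1 = f) ▸ one_mem _
    obtain ⟨-, g, -, e'⟩ := C.t h
    exact ⟨⟨g, subset_closure ⟨v, φ, h, e'⟩⟩, LinearEquiv.ext fun x => Subtype.ext (by simp [r, e, e'])⟩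
  refine ⟨ρ, r, (C.dich (G.faith C)).imp (fun l => Set.ext fun f => ⟨fun hf => ?_, sl_gen_abs fun f v μ h0 e => ?_⟩)
    fun ⟨M, m1, m2, m3⟩ => ?_⟩
  · refine (LinearEquiv.coe_det f).symm.trans (Units.ext_iff.1 (le (LinearEquiv.det.ker) (fun v φ h f e => Units.ext ?_) hf))
    rw [LinearEquiv.coe_det, show (f : cen S →ₗ[F] cen S) = LinearMap.transvection (φ.domRestrict _) v from
      LinearMap.ext e]
    simp [(C.t h).1]
  · have := FiniteDimensional.mem_span_of_iInf_ker_le_ker (K := μ) (L := fun φ : ax S => φ.1.domRestrict (cen S))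
      fun x hx => by
        rw [show x = 0 from Subtype.ext (G.cen_fx C x.2 (mem_fx.2 fun v φ h => by
          simpa using (Submodule.mem_iInf _).1 hx ⟨φ, mem_ax h⟩))]
        exact zero_mem _
    obtain ⟨φ, hφ, rfl⟩ : μ ∈ (ax S).map (cen S).dualRestrict :=
      Submodule.span_le.2 (by rintro _ ⟨φ, rfl⟩; exact ⟨φ, φ.2, rfl⟩) this
    refine ge v φ (or_iff_not_imp_left.2 fun h1 => or_iff_not_imp_left.2 fun h2 => ?_) f e
    obtain ⟨ψ, a⟩ := (G.of_cen C v.2).resolve_left fun e => h1 (Subtype.ext e)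
    obtain ⟨w, b⟩ := (G.of_ax C hφ).resolve_left h2
    exact C.of_l a (l a b h0) h2
  have u : ∀ {v φ ψ}, (v, φ) ∈ M → (v, ψ) ∈ M → φ = ψ := fun a b => by_contra fun n =>
    (C.sub (m1 _ (M.sub_mem a b) fun e => n (sub_eq_zero.1 (congrArg Prod.snd e)))).2.1 (sub_self _)
  have ex : ∀ v : cen S, ∃ φ, (v.1, φ) ∈ M := fun v => (G.of_cen C v.2).elim (fun e => ⟨0, e ▸ M.zero_mem⟩)
    fun ⟨φ, h⟩ => let ⟨_, _, h⟩ := m3 _ φ h; ⟨_, h⟩
  choose f hf using ex
  let B : LinearMap.BilinForm F (cen S) := (cen S).dualRestrict ∘ₗ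
    { toFun := f, map_add' := fun x y => u (hf _) (M.add_mem (hf x) (hf y)),
      map_smul' := fun c x => u (hf _) (M.smul_mem c (hf x)) }
  have b : ∀ x y, B x y = f x y := fun _ _ => rfl
  have b' : ∀ x y, B x y = -f y x := fun x y => eq_neg_of_add_eq_zero_left (m2 _ (hf x) _ (hf y))
  have hA : B.IsAlt := fun x => mul_left_cancel₀ C.two (by linear_combination b x x + b' x x)
  have hB : B.Nondegenerate := hA.isRefl.nondegenerate_iff_separatingLeft.2 fun x hx => by_contra fun n => by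
    obtain ⟨y, ξ, h1, -, h2⟩ := C.opp' (m1 _ (hf x) fun e => n (Subtype.ext (congrArg Prod.fst e)))
    exact h2 (hx ⟨y, mem_cen h1⟩)
  refine ⟨B, hA, hB, Set.ext fun g => ⟨fun hg => le (Symp.isom B) (fun v φ h g e x y => ?_) hg, fun hg => ?_⟩⟩
  · obtain ⟨k, -, h1⟩ := m3 _ φ h
    simp only [e, map_add, map_smul, LinearMap.add_apply, LinearMap.smul_apply, smul_eq_mul, hA v, b' x v, b v y,
      u (hf v) h1]
    ring
  · refine (Symp.eq_top_of_tv_mem hA hB (ρ.range.subgroupOf _) fun v c => ge v ((-c) • f v) ?_ _ fun x => ?_).ge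
      (mem_top (⟨g, hg⟩ : Symp.isom B))
    · refine or_iff_not_imp_left.2 fun h1 => or_iff_not_imp_left.2 fun h2 => ?_
      simpa only [one_smul] using C.smul' (m1 _ (hf v) fun e => h1 (Subtype.ext (congrArg Prod.fst e))) one_ne_zero
        (left_ne_zero_of_smul h2)
    · exact (Symp.tv_apply hA v c x).trans (by simp [b'])

end Gen

end Cfsg.Lib.TvS
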